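import Cfsg.Agent.H141.Rg.Lin

/-!
# S5714, C7: `GoodPow` from the absence of coincidences (helper930)
-/

set_option autoImplicit false

namespace Cfsg.Agent.H930.RG

open Polynomial Module Cfsg.Agent.H141.Rg

section poly

variable {K : Type*} [Field K]

/-- a root in the algebraic closure -/
theorem exists_root {f : K[X]} (hf : Irr' f) : ∃ a : AlgebraicClosure K, aeval a f = 0 := by
  obtain ⟨a, ha⟩ := IsAlgClosed.exists_aeval_eq_zero (AlgebraicClosure K) f
    (ne_of_gt (Polynomial.degree_pos_of_irreducible hf.2.1))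
  exact ⟨a, ha⟩

theorem eq_minpoly {f : K[X]} (hf : Irr' f) {a : AlgebraicClosure K} (ha : aeval a f = 0) : f = minpoly K a :=
  minpoly.eq_of_irreducible_of_monic hf.2.1 ha hf.1

/-- the minimal polynomial of the power of a root -/
theorem dvd_expand {f : K[X]} (hf : Irr' f) {a : AlgebraicClosure K} (ha : aeval a f = 0) (m : ℕ) :
    f ∣ expand K m (minpoly K (a ^ m)) := by
  rw [eq_minpoly hf ha]
  apply minpoly.dvd
  rw [expand_aeval, minpoly.aeval]

theorem irr_minpoly (a : AlgebraicClosure K) : Irreducible (minpoly K a) :=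
  minpoly.irreducible (Algebra.IsIntegral.isIntegral a)

theorem monic_minpoly (a : AlgebraicClosure K) : (minpoly K a).Monic :=
  minpoly.monic (Algebra.IsIntegral.isIntegral a)

/-- different monic irreducible polynomials are coprime -/
theorem coprime_of_ne {f g : K[X]} (hf : Irreducible f) (hf' : f.Monic) (hg : Irreducible g) (hg' : g.Monic)
    (h : f ≠ g) : IsCoprime f g := by
  rcases hf.isCoprime_or_dvd g with h1 | h1
  · exact h1
  · exact absurd (eq_of_monic_of_associated hf' hg' (hf.associated_of_dvd hg h1)) h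

/-- no coincidences between the powers of the roots of `f` and `g` -/
theorem coprime_pow [PerfectField K] {f g : K[X]} {k m : ℕ} (hm : 1 ≤ m) (hmk : m < k)
    (hB : ¬ B2 k f g) {a b : AlgebraicClosure K} (ha : aeval a f = 0) (hb : aeval b g = 0) :
    IsCoprime (minpoly K (a ^ m)) (minpoly K (b ^ m)) := by
  refine coprime_of_ne (irr_minpoly _) (monic_minpoly _) (irr_minpoly _) (monic_minpoly _) fun h => hB ?_
  obtain ⟨σ, hσ⟩ := isConjRoot_iff_exists_algEquiv.1 (show IsConjRoot K (b ^ m) (a ^ m) from h.symm)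
  refine ⟨m, hm, hmk, σ a, b, ?_, hb, ?_⟩
  · rw [Polynomial.aeval_algHom_apply σ, ha, map_zero]
  · rw [← map_pow, hσ]

/-- a root is a polynomial in its `m`-th power -/
theorem exists_poly [PerfectField K] {f : K[X]} {k m : ℕ} (hm : 1 ≤ m) (hmk : m < k) (hB : ¬ B1 k f)
    {a : AlgebraicClosure K} (ha : aeval a f = 0) : ∃ r : K[X], aeval (a ^ m) r = a := by
  have h1 : a ∈ IntermediateField.fixedField (IntermediateField.fixingSubgroup (IntermediateField.adjoin K {a ^ m})) := by
    rw [IntermediateField.mem_fixedField_iff]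
    intro σ hσ
    by_contra hne
    have h2 : σ (a ^ m) = a ^ m := by
      rw [IntermediateField.mem_fixingSubgroup_iff] at hσ
      exact hσ _ (IntermediateField.mem_adjoin_simple_self K (a ^ m))
    refine hB ⟨m, hm, hmk, σ a, a, ?_, ha, hne, ?_⟩
    · rw [Polynomial.aeval_algHom_apply σ, ha, map_zero]
    · rw [← map_pow, h2]
  rw [InfiniteGalois.fixedField_fixingSubgroup] at h1
  have h2 : a ∈ (IntermediateField.adjoin K {a ^ m}).toSubalgebra := h1
  rw [IntermediateField.adjoin_simple_toSubalgebra_of_isAlgebraic (Algebra.IsAlgebraic.isAlgebraic _),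
    Algebra.adjoin_singleton_eq_range_aeval] at h2
  obtain ⟨r, hr⟩ := h2
  exact ⟨r, hr⟩

/-- Chinese remainder theorem -/
theorem crt {ι : Type*} [DecidableEq ι] (s : Finset ι) (g r : ι → K[X])
    (hg : ∀ i ∈ s, ∀ j ∈ s, i ≠ j → IsCoprime (g i) (g j)) : ∃ R : K[X], ∀ i ∈ s, g i ∣ R - r i := by
  induction s using Finset.induction_on with
  | empty => exact ⟨0, fun i hi => absurd hi (Finset.notMem_empty i)⟩
  | insert a s ha ih =>
    obtain ⟨R, hR⟩ := ih fun i hi j hj => hg i (Finset.mem_insert_of_mem hi) j (Finset.mem_insert_of_mem hj)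
    have hc : IsCoprime (g a) (∏ i ∈ s, g i) := IsCoprime.prod_right fun i hi =>
      hg a (Finset.mem_insert_self a s) i (Finset.mem_insert_of_mem hi) fun e => ha (e ▸ hi)
    obtain ⟨u, v, e⟩ := hc
    refine ⟨R * (u * g a) + r a * (v * ∏ i ∈ s, g i), fun i hi => ?_⟩
    rcases Finset.mem_insert.1 hi with rfl | hi
    · refine ⟨(R - r i) * u, ?_⟩
      linear_combination (r i) * e
    · have h1 : g i ∣ ∏ i ∈ s, g i := Finset.dvd_prod_of_mem g hi
      have h2 : R * (u * g a) + r a * (v * ∏ i ∈ s, g i) - r i = (R - r i) + (∏ i ∈ s, g i) * (v * (r a - R)) := by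
        linear_combination R * e
      rw [h2]
      exact dvd_add (hR i hi) (h1.mul_right _)

end poly

section lin

variable {K V : Type*} [Field K] [AddCommGroup V] [Module K V]

theorem comm_aeval {f y : V →ₗ[K] V} (h : Commute f y) (g : K[X]) : Commute f (aeval y g) := by
  induction g using Polynomial.induction_on' with
  | add p q hp hq => rw [map_add]; exact hp.add_right hq
  | monomial n a =>
    rw [aeval_monomial]
    exact (Algebra.commute_algebraMap_right a f).mul_right (h.pow_right n)

theorem ker_prod_le {ι : Type*} [DecidableEq ι] (y : V →ₗ[K] V) (s : Finset ι) (g : ι → K[X])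
    (hg : ∀ i ∈ s, ∀ j ∈ s, i ≠ j → IsCoprime (g i) (g j)) :
    LinearMap.ker (aeval y (∏ i ∈ s, g i)) ≤ ⨆ i ∈ s, LinearMap.ker (aeval y (g i)) := by
  induction s using Finset.induction_on with
  | empty =>
    rw [Finset.prod_empty, map_one]
    intro v hv
    have : v = 0 := hv
    rw [this]
    exact Submodule.zero_mem _
  | insert a s ha ih =>
    have hc : IsCoprime (g a) (∏ i ∈ s, g i) := IsCoprime.prod_right fun i hi =>
      hg a (Finset.mem_insert_self a s) i (Finset.mem_insert_of_mem hi) fun e => ha (e ▸ hi)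
    rw [Finset.prod_insert ha, ← Polynomial.sup_ker_aeval_eq_ker_aeval_mul_of_coprime y hc]
    refine sup_le ?_ ?_
    · exact le_iSup₂_of_le a (Finset.mem_insert_self a s) le_rfl
    · refine (ih fun i hi j hj => hg i (Finset.mem_insert_of_mem hi) j (Finset.mem_insert_of_mem hj)).trans ?_
      exact iSup₂_le fun i hi => le_iSup₂_of_le i (Finset.mem_insert_of_mem hi) le_rfl

/-- **C7.** -/
theorem goodPow_of [FiniteDimensional K V] [PerfectField K] {y : V →ₗ[K] V} (hy : Function.Injective y) {S : Set K[X]}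
    (hS : ∀ f ∈ S, Irr' f) {k : ℕ}
    (h1 : ∀ f, Irr' f → f ∉ S → Dv y f → ¬ Rep2 y f ∧ ¬ B1 k f)
    (h2 : ∀ f g, Irr' f → Irr' g → f ∉ S → f ≠ g → Dv y f → Dv y g → ¬ B2 k f g) : GoodPow y (smallP y S) k := by
  classical
  set μ := minpoly K y with hμ
  have hint : IsIntegral K y := Algebra.IsIntegral.isIntegral y
  have hμm : μ.Monic := minpoly.monic hint
  have hμ0 : μ ≠ 0 := hμm.ne_zero
  -- proper divisors of `μ` do not kill
  have hproper : ∀ g h : K[X], μ = g * h → ¬ IsUnit g → ∃ u : V, aeval y h u ≠ 0 := by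
    intro g h e hg
    by_contra hcon
    push Not at hcon
    have h3 : aeval y h = 0 := LinearMap.ext hcon
    have h4 : μ ∣ h := minpoly.dvd K y h3
    have hh0 : h ≠ 0 := by
      rintro rfl
      exact hμ0 (by rw [e, mul_zero])
    obtain ⟨c, hc⟩ := h4
    apply hg
    have h5 : h * (g * c) = h * 1 := by
      rw [mul_one]
      conv_rhs => rw [hc, e]
      ring
    exact IsUnit.of_mul_eq_one c (mul_left_cancel₀ hh0 h5)
  set F : Finset K[X] := (UniqueFactorizationMonoid.normalizedFactors μ).toFinset with hF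
  have hFirr : ∀ f ∈ F, Irreducible f := fun f hf =>
    UniqueFactorizationMonoid.irreducible_of_normalized_factor f (Multiset.mem_toFinset.1 hf)
  have hFm : ∀ f ∈ F, f.Monic := by
    intro f hf
    have h3 := UniqueFactorizationMonoid.normalize_normalized_factor f (Multiset.mem_toFinset.1 hf)
    rw [← h3]
    exact Polynomial.monic_normalize (hFirr f hf).ne_zero
  have hFd : ∀ f ∈ F, f ∣ μ := fun f hf =>
    UniqueFactorizationMonoid.dvd_of_mem_normalizedFactors (Multiset.mem_toFinset.1 hf)
  have hFDv : ∀ f ∈ F, Dv y f := by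
    intro f hf
    obtain ⟨g, hg⟩ := hFd f hf
    obtain ⟨u, hu⟩ := hproper f g hg (hFirr f hf).not_isUnit
    refine ⟨aeval y g u, hu, ?_⟩
    rw [← Module.End.mul_apply, ← map_mul, ← hg, minpoly.aeval, LinearMap.zero_apply]
  have hFX : ∀ f ∈ F, f ≠ Polynomial.X := by
    rintro f hf rfl
    obtain ⟨v, hv, hv'⟩ := hFDv _ hf
    rw [aeval_X] at hv'
    exact hv (hy (by rw [hv', map_zero]))
  have hF' : ∀ f ∈ F, Irr' f := fun f hf => ⟨hFm f hf, hFirr f hf, hFX f hf⟩
  -- multiplicity one outside `S`
  have hone : ∀ f ∈ F, f ∉ S → (UniqueFactorizationMonoid.normalizedFactors μ).count f = 1 := by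
    intro f hf hfS
    have h3 := (h1 f (hF' f hf) hfS (hFDv f hf)).1
    have h4 : 0 < (UniqueFactorizationMonoid.normalizedFactors μ).count f :=
      Multiset.count_pos.2 (Multiset.mem_toFinset.1 hf)
    by_contra hne
    have h5 : 2 ≤ (UniqueFactorizationMonoid.normalizedFactors μ).count f := by omega
    have h6 : f ^ 2 ∣ μ := by
      have h7 : Multiset.replicate 2 f ≤ UniqueFactorizationMonoid.normalizedFactors μ :=
        Multiset.le_count_iff_replicate_le.1 h5
      have h8 := Multiset.prod_dvd_prod_of_le h7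
      rw [Multiset.prod_replicate] at h8
      exact h8.trans (UniqueFactorizationMonoid.prod_normalizedFactors hμ0).dvd
    obtain ⟨g, hg⟩ := h6
    obtain ⟨u, hu⟩ := hproper f (f * g) (by rw [hg]; ring) (hFirr f hf).not_isUnit
    apply h3
    refine Or.inr ⟨aeval y g u, ?_, ?_⟩
    · rw [← Module.End.mul_apply, ← map_mul, ← hg, minpoly.aeval, LinearMap.zero_apply]
    · rw [← Module.End.mul_apply, ← map_mul]
      exact hu
  set FS := F.filter (· ∈ S) with hFS
  set FN := F.filter (· ∉ S) with hFN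
  set e : K[X] → ℕ := fun f => (UniqueFactorizationMonoid.normalizedFactors μ).count f with he
  set P := ∏ f ∈ FS, f ^ e f with hP
  set Q := ∏ f ∈ FN, f with hQ
  have hPQ : P * Q = μ := by
    have h3 : ∏ f ∈ F, f ^ e f = μ := by
      rw [hF, ← Finset.prod_multiset_count]
      rw [UniqueFactorizationMonoid.prod_normalizedFactors_eq hμ0]
      exact hμm.normalize_eq_self
    rw [← h3, ← Finset.prod_filter_mul_prod_filter_not F (· ∈ S)]
    congr 1
    refine Finset.prod_congr rfl fun f hf => ?_
    rw [Finset.mem_filter] at hf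
    rw [he]
    simp only
    rw [hone f hf.1 hf.2, pow_one]
  have hcopF : ∀ f ∈ F, ∀ g ∈ F, f ≠ g → IsCoprime f g := fun f hf g hg hne =>
    coprime_of_ne (hFirr f hf) (hFm f hf) (hFirr g hg) (hFm g hg) hne
  have hcop : IsCoprime P Q := by
    refine IsCoprime.prod_left fun f hf => IsCoprime.prod_right fun g hg => ?_
    rw [Finset.mem_filter] at hf hg
    refine IsCoprime.pow_left (hcopF f hf.1 g hg.1 ?_)
    rintro rfl
    exact hg.2 hf.2
  -- the small part
  have hA : smallP y S = LinearMap.ker (aeval y P) := by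
    apply le_antisymm
    · refine iSup₂_le fun f hf => iSup_le fun j v hv => ?_
      have hfi := hS f hf
      have h3 : IsCoprime (f ^ j) Q := by
        refine IsCoprime.pow_left (IsCoprime.prod_right fun g hg => ?_)
        rw [Finset.mem_filter] at hg
        refine coprime_of_ne hfi.2.1 hfi.1 (hFirr g hg.1) (hFm g hg.1) ?_
        rintro rfl
        exact hg.2 hf
      obtain ⟨u, w, huw⟩ := h3
      rw [LinearMap.mem_ker] at hv ⊢
      have h4 : aeval y P v = aeval y (P * (u * f ^ j + w * Q)) v := by rw [huw, mul_one]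
      have h5 : P * (u * f ^ j + w * Q) = (P * u) * f ^ j + w * μ := by rw [← hPQ]; ring
      rw [h4, h5, map_add, LinearMap.add_apply, map_mul, Module.End.mul_apply, hv, map_zero, zero_add, map_mul,
        Module.End.mul_apply, minpoly.aeval, LinearMap.zero_apply, map_zero]
    · refine (ker_prod_le y FS (fun f => f ^ e f) fun f hf g hg hne => ?_).trans ?_
      · rw [Finset.mem_filter] at hf hg
        exact (hcopF f hf.1 g hg.1 hne).pow
      · refine iSup₂_le fun f hf => ?_
        rw [Finset.mem_filter] at hf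
        exact le_iSup₂_of_le f hf.2 (le_iSup_of_le (e f) le_rfl)
  rw [hA]
  set A := LinearMap.ker (aeval y P) with hAd
  set B := LinearMap.ker (aeval y Q) with hBd
  have hcompl : IsCompl A B := by
    constructor
    · exact Polynomial.disjoint_ker_aeval_of_isCoprime y hcop
    · rw [codisjoint_iff, hAd, hBd, Polynomial.sup_ker_aeval_eq_ker_aeval_mul_of_coprime y hcop, hPQ, minpoly.aeval]
      exact LinearMap.ker_zero
  have hcomm : ∀ (g : K[X]) (v : V), aeval y g (y v) = y (aeval y g v) := by
    intro g v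
    have h3 : Commute (aeval y g) y := (comm_aeval (Commute.refl y) g).symm
    exact LinearMap.congr_fun h3.eq v
  refine ⟨B, hcompl, fun a ha => ?_, fun b hb => ?_, ?_⟩
  · rw [hAd, LinearMap.mem_ker] at ha ⊢
    rw [hcomm, ha, map_zero]
  · rw [hBd, LinearMap.mem_ker] at hb ⊢
    rw [hcomm, hb, map_zero]
  intro m hm hmk φ hφ
  -- choose roots
  choose! ro hro using fun (f : K[X]) (hf : Irr' f) => exists_root hf
  set G : K[X] → K[X] := fun f => minpoly K (ro f ^ m) with hG
  have hGd : ∀ f ∈ F, f ∣ expand K m (G f) := fun f hf => dvd_expand (hF' f hf) (hro f (hF' f hf)) m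
  have hGc : ∀ f ∈ FN, ∀ g ∈ F, f ≠ g → IsCoprime (G f) (G g) := by
    intro f hf g hg hne
    rw [Finset.mem_filter] at hf
    exact coprime_pow hm hmk (h2 f g (hF' f hf.1) (hF' g hg) hf.2 hne (hFDv f hf.1) (hFDv g hg))
      (hro f (hF' f hf.1)) (hro g (hF' g hg))
  -- the idempotent
  obtain ⟨w, hw1, hw2⟩ : ∃ w : K[X], P ∣ expand K m w ∧ Q ∣ expand K m w - 1 := by
    have h3 : IsCoprime (∏ f ∈ FS, G f ^ e f) (∏ f ∈ FN, G f) := by
      refine IsCoprime.prod_left fun f hf => IsCoprime.prod_right fun g hg => ?_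
      refine IsCoprime.pow_left (hGc g hg f (Finset.mem_filter.1 hf).1 ?_).symm
      rintro rfl
      exact (Finset.mem_filter.1 hg).2 (Finset.mem_filter.1 hf).2
    obtain ⟨u, v, huv⟩ := h3
    refine ⟨u * ∏ f ∈ FS, G f ^ e f, ?_, ?_⟩
    · rw [map_mul, map_prod]
      refine Dvd.dvd.mul_left (Finset.prod_dvd_prod_of_dvd _ _ fun f hf => ?_) _
      rw [map_pow]
      exact pow_dvd_pow_of_dvd (hGd f (Finset.mem_filter.1 hf).1) _
    · have h4 : expand K m (u * ∏ f ∈ FS, G f ^ e f) - 1 = - (expand K m v * ∏ f ∈ FN, expand K m (G f)) := by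
        have h5 := congrArg (expand K m) huv
        rw [map_add, map_one, map_mul (expand K m) v, map_prod (expand K m) G] at h5
        linear_combination h5
      rw [h4]
      refine (Dvd.dvd.mul_left (Finset.prod_dvd_prod_of_dvd _ _ fun f hf => ?_) _).neg_right
      exact hGd f (Finset.mem_filter.1 hf).1
  -- the polynomial for `y`
  obtain ⟨r, hr⟩ : ∃ r : K[X], Q ∣ expand K m r - Polynomial.X := by
    have h3 : ∀ f ∈ FN, ∃ r : K[X], aeval (ro f ^ m) r = ro f := by
      intro f hf
      rw [Finset.mem_filter] at hf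
      exact exists_poly hm hmk (h1 f (hF' f hf.1) hf.2 (hFDv f hf.1)).2 (hro f (hF' f hf.1))
    choose! rr hrr using h3
    obtain ⟨R, hR⟩ := crt FN G rr fun f hf g hg hne => hGc f hf g (Finset.mem_filter.1 hg).1 hne
    refine ⟨R, Finset.prod_dvd_of_coprime (fun f hf g hg hne => ?_) fun f hf => ?_⟩
    · exact hcopF f (Finset.mem_filter.1 hf).1 g (Finset.mem_filter.1 hg).1 hne
    · have hfF := (Finset.mem_filter.1 hf).1
      rw [eq_minpoly (hF' f hfF) (hro f (hF' f hfF))]
      apply minpoly.dvd
      rw [map_sub, expand_aeval, aeval_X]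
      obtain ⟨c, hc⟩ := hR f hf
      have h4 : R = rr f + G f * c := by rw [← hc]; ring
      rw [h4, map_add, hrr f hf, map_mul]
      have h5 : aeval (ro f ^ m) (G f) = 0 := minpoly.aeval K _
      rw [h5, zero_mul, add_zero, sub_self]
  have hφW : ∀ (g : K[X]) (v : V), φ (aeval y (expand K m g) v) = aeval y (expand K m g) (φ v) := by
    intro g v
    rw [expand_aeval]
    have h3 : Commute φ (aeval (y ^ m) g) := comm_aeval hφ g
    exact LinearMap.congr_fun h3.eq v
  have hWA : ∀ a ∈ A, aeval y (expand K m w) a = 0 := by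
    intro a ha
    obtain ⟨c, hc⟩ := hw1
    rw [hc, mul_comm, map_mul, Module.End.mul_apply, LinearMap.mem_ker.1 ha, map_zero]
  have hWB : ∀ b ∈ B, aeval y (expand K m w) b = b := by
    intro b hb
    obtain ⟨c, hc⟩ := hw2
    have h3 : expand K m w = 1 + c * Q := by rw [mul_comm c, ← hc]; ring
    rw [h3, map_add, map_one, LinearMap.add_apply, map_mul, Module.End.mul_apply, LinearMap.mem_ker.1 hb, map_zero,
      add_zero, Module.End.one_apply]
  have hdec : ∀ v : V, ∃ a ∈ A, ∃ b ∈ B, v = a + b := by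
    intro v
    have h3 : v ∈ A ⊔ B := by rw [hcompl.sup_eq_top]; exact Submodule.mem_top
    obtain ⟨a, ha, b, hb, e⟩ := Submodule.mem_sup.1 h3
    exact ⟨a, ha, b, hb, e.symm⟩
  have hφA : ∀ a ∈ A, φ a ∈ A := by
    intro a ha
    have h3 := hφW w a
    rw [hWA a ha, map_zero] at h3
    obtain ⟨a', ha', b', hb', e⟩ := hdec (φ a)
    rw [e, map_add, hWA a' ha', hWB b' hb', zero_add] at h3
    rw [e, ← h3, add_zero]
    exact ha'
  have hφB : ∀ b ∈ B, φ b ∈ B := by
    intro b hb
    have h3 := hφW w b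
    rw [hWB b hb] at h3
    obtain ⟨a', ha', b', hb', e⟩ := hdec (φ b)
    rw [h3] at e
    have h4 : φ b = b' := by
      obtain ⟨a'', ha'', b'', hb'', e'⟩ := hdec (φ b)
      have h5 : aeval y (expand K m w) (φ b) = b'' := by rw [e', map_add, hWA a'' ha'', hWB b'' hb'', zero_add]
      have h6 : aeval y (expand K m w) (φ b) = φ b := h3.symm
      have h7 : φ b = b'' := by rw [← h6, h5]
      have h8 : φ b ∈ B := by rw [h7]; exact hb''
      have h9 : φ b = a' + b' := by rw [← e, h6]
      have h10 : a' ∈ A ⊓ B := ⟨ha', by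
        have : a' = φ b - b' := by rw [h9]; abel
        rw [this]
        exact B.sub_mem h8 hb'⟩
      rw [hcompl.inf_eq_bot, Submodule.mem_bot] at h10
      rw [h9, h10, zero_add]
    rw [h4]
    exact hb'
  refine ⟨hφA, hφB, fun b hb => ?_⟩
  have hyB : ∀ b ∈ B, y b = aeval y (expand K m r) b := by
    intro b hb
    obtain ⟨c, hc⟩ := hr
    have h3 : expand K m r = Polynomial.X + c * Q := by rw [mul_comm c, ← hc]; ring
    rw [h3, map_add, aeval_X, LinearMap.add_apply, map_mul, Module.End.mul_apply, LinearMap.mem_ker.1 hb, map_zero,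
      add_zero]
  rw [hyB b hb, hφW, ← hyB _ (hφB b hb)]

end lin

end Cfsg.Agent.H930.RG
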